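import Cfsg.Agent.Lib.Ree.Solv
import Cfsg.Agent.Lib.Spec.Basic

/-! Element orders of the small Ree groups, and of an extension of an involution centraliser. -/

set_option autoImplicit false

open Matrix MulAction H64.SL2 H40.Tor H74.Spec
open scoped MatrixGroups

namespace H40.Ree

variable {G : Type*} [Group G] {K : Type*} [Field K] [CharP K 3]

omit [CharP K 3] in
theorem tr_of_eigen {p q r t P Q R T ε : K} (h1 : p * t - q * r = 1) (h2 : P * T - Q * R = 1) (hε : ε * ε = 1)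
    {v : Fin 7 → K} (h : phiP p q r t P Q R T *ᵥ v = ε • v) (hv : v 0 ≠ 0 ∨ v 2 ≠ 0 ∨ v 4 ≠ 0 ∨ v 6 ≠ 0) :
    P + T = ε * (p + t) := by
  rw [phiP_mulVec] at h
  have e0 := congrFun h 0
  have e2 := congrFun h 2
  have e4 := congrFun h 4
  have e6 := congrFun h 6
  simp only [Matrix.cons_val, Pi.smul_apply, smul_eq_mul] at e0 e2 e4 e6
  rw [← sub_eq_zero]
  rcases hv with hv | hv | hv | hv <;> refine (mul_eq_zero.1 ?_).resolve_right hv <;> grind

namespace Model

variable (S : Model G K)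

/-- The `-1`-eigenspace of `a0`. -/
def Vm : Submodule K (Fin 7 → K) where
  carrier := {v | S.mat S.a0 *ᵥ v = -v}
  add_mem' := fun {a b} ha hb => by
    rw [Set.mem_ofPred_eq] at *; rw [mulVec_add, ha, hb, neg_add]
  zero_mem' := by simp
  smul_mem' := fun c v hv => by rw [Set.mem_ofPred_eq] at *; rw [mulVec_smul, hv, smul_neg]

theorem mem_Vm {v : Fin 7 → K} : v ∈ S.Vm ↔ v 1 = 0 ∧ v 3 = 0 ∧ v 5 = 0 := by
  show S.mat S.a0 *ᵥ v = -v ↔ _
  rw [mat_a0_mulVec]
  constructor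
  · intro h
    have e1 := congrFun h 1
    have e3 := congrFun h 3
    have e5 := congrFun h 5
    simp only [Matrix.cons_val, Pi.neg_apply] at e1 e3 e5
    grind
  · rintro ⟨e1, e3, e5⟩
    ext k; fin_cases k <;> simp [e1, e3, e5]

/-- The centraliser of `a0` acting on the `-1`-eigenspace of `a0`. -/
noncomputable def rho : Representation K (Subgroup.centralizer ({S.a0} : Set G)) S.Vm where
  toFun g := (S.mat g).mulVecLin.restrict fun v hv => by
    show S.mat S.a0 *ᵥ (S.mat g *ᵥ v) = -(S.mat g *ᵥ v)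
    rw [← mat_mul_vec, ← Subgroup.mem_centralizer_singleton_iff.1 g.2, mat_mul_vec,
      show S.mat S.a0 *ᵥ v = -v from hv, mulVec_neg]
  map_one' := by ext v; simp
  map_mul' g h := by ext v; simp

theorem rho_apply (g : Subgroup.centralizer ({S.a0} : Set G)) (v : S.Vm) :
    (S.rho g v : Fin 7 → K) = S.mat g *ᵥ v := rfl

theorem pow_of_fix [Finite K] {g : G} (hg : g ∈ Subgroup.centralizer ({S.a0} : Set G)) {v : Fin 7 → K}
    (hv : v ∈ S.Vm) (h0 : v ≠ 0) (h : S.mat g *ᵥ v = v) : g ^ 2 = 1 ∨ g ^ 3 = 1 := by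
  have h1 : v 0 ≠ 0 ∨ v 2 ≠ 0 ∨ v 4 ≠ 0 ∨ v 6 ≠ 0 := by
    by_contra hc
    push Not at hc
    obtain ⟨e1, e3, e5⟩ := S.mem_Vm.1 hv
    exact h0 (by ext k; fin_cases k <;> simp [*])
  have key : ∀ (x : SL(2, K)) (ε : K), ε * ε = 1 → S.mat (S.phi x) *ᵥ v = ε • v →
      S.s (x 0 0 + x 1 1) = ε * (x 0 0 + x 1 1) := fun x ε hε h => by
    have hd := det_eq x
    rw [map_add]
    exact tr_of_eigen hd (by rw [← map_mul, ← map_mul, ← map_sub, hd, map_one]) hε (S.mat_phi x ▸ h) h1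
  have k2 : ∀ x : SL(2, K), x 0 0 + x 1 1 = 0 → S.phi x * S.phi x = 1 := fun x e => by
    have hd := det_eq x
    rw [← map_mul, phi_eq_one_iff]; right
    simp only [ent]; grind
  obtain ⟨x, rfl | rfl⟩ := S.mem_centralizer_a0.1 hg
  · have hd := det_eq x
    rcases S.s_eq_self ((key x 1 (one_mul 1) (by rw [h, one_smul])).trans (one_mul _)) with e | e | e
    · exact Or.inl (by rw [sq, k2 x e])
    · right
      rw [← map_pow, phi_eq_one_iff, pow_three]; right
      simp only [ent]; grind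
    · right
      rw [← map_pow, phi_eq_one_iff, pow_three]; left
      simp only [ent]; grind
  · have e := key x (-1) (by simp) (by
      rw [a0_mul_phi, mat_mul_vec, show S.mat S.a0 *ᵥ v = -v from hv, mulVec_neg, neg_eq_iff_eq_neg] at h
      rw [h, neg_one_smul])
    have e' := congrArg S.s e
    rw [S.hs, map_mul, e, map_neg, map_one] at e'
    left
    rw [sq, a0_phi_sq, k2 x]
    by_contra hc
    have h3 : x 0 0 + x 1 1 = 1 ∨ x 0 0 + x 1 1 = -1 := by grind
    rcases h3 with h3 | h3 <;> simp only [h3, map_neg, map_one] at e <;> grind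

/-- The extension of the involution centraliser. -/
abbrev HV : Type _ := Multiplicative S.Vm ⋊[repAut S.rho] Subgroup.centralizer ({S.a0} : Set G)

theorem finite_HV [Finite K] : Finite S.HV :=
  haveI := S.finite
  Finite.of_equiv _ SemidirectProduct.equivProd.symm

theorem mem_spec_HV [Finite K] (n : ℕ) : n ∈ Set.range (orderOf : S.HV → ℕ) ↔
    n ∣ 6 ∨ n ∣ 9 ∨ n ∣ Nat.card K - 1 ∨ n ∣ (Nat.card K + 1) / 2 := by
  have := S.finite
  have := S.finite_HV
  have h3 : ∀ v : S.Vm, addOrderOf v ∣ 3 := fun v => addOrderOf_dvd_of_nsmul_eq_zero (by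
    rw [← Nat.cast_smul_eq_nsmul K, CharP.cast_eq_zero, zero_smul])
  have hm : ∀ g ∈ Subgroup.centralizer ({S.a0} : Set G), orderOf g ∈ Set.range (orderOf : S.HV → ℕ) :=
    fun g hg => ⟨SemidirectProduct.inr ⟨g, hg⟩, by
      rw [orderOf_injective _ SemidirectProduct.inr_injective, ← Subgroup.orderOf_coe]⟩
  constructor
  · intro h
    obtain ⟨g, v, rfl⟩ := (mem_range_orderOf_rep _ _).1 h
    by_cases h0 : norm S.rho g v = 0
    · rw [h0, addOrderOf_zero, mul_one, ← Subgroup.orderOf_coe]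
      rcases S.orderOf_cases g with e | e | e | e | e | e | e | e
      iterate 5 (rw [e]; simp)
      · tauto
      · tauto
      · have h1 := Subgroup.orderOf_dvd_natCard _ g.2
        rw [card_centralizer_a0] at h1
        exact absurd (Nat.eq_one_of_dvd_coprimes coprime_M' (h1.trans (mul_dvd_mul_right
          (mul_dvd_mul_right (dvd_pow_self _ three_ne_zero) _) _)) e.2) e.1.ne'
    · rcases S.pow_of_fix g.2 (norm S.rho g v).2 (fun e => h0 (Subtype.ext e))
        (congrArg Subtype.val (rep_norm S.rho g v)) with e | e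
      · exact Or.inl (mul_dvd_mul (orderOf_dvd_of_pow_eq_one (Subtype.ext e : g ^ 2 = 1)) (h3 _) : _ ∣ 2 * 3)
      · exact Or.inr (Or.inl
          (mul_dvd_mul (orderOf_dvd_of_pow_eq_one (Subtype.ext e : g ^ 3 = 1)) (h3 _) : _ ∣ 3 * 3))
  · have hu : S.u 0 1 0 * S.a0 = S.a0 * S.u 0 1 0 := by rw [a0_mul_u]; simp
    rintro (h | h | h | h) <;> refine mem_range_orderOf_of_dvd ?_ h
    · have := hm (S.u 0 1 0 * S.a0) (Subgroup.mem_centralizer_singleton_iff.2 (by rw [← mul_assoc, hu]))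
      rwa [orderOf_u_a0, if_neg (by simp)] at this
    · let g : Subgroup.centralizer ({S.a0} : Set G) := ⟨_, Subgroup.mem_centralizer_singleton_iff.2 hu⟩
      have hg : orderOf g = 3 := by
        rw [← Subgroup.orderOf_coe]; exact S.orderOf_u_zero (by simp [u_eq_one])
      refine (mem_range_orderOf_rep _ _).2 ⟨g, ⟨e 6, S.mem_Vm.2 (by simp)⟩, ?_⟩
      rw [hg, ((Nat.dvd_prime Nat.prime_three).1 (h3 _)).resolve_left]
      rw [AddMonoid.addOrderOf_eq_one_iff, H74.Spec.norm, hg]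
      intro h
      have h1 := congrFun (congrArg Subtype.val h) 0
      simp only [Finset.sum_range_succ, Finset.sum_range_zero, Submodule.coe_add, rho_apply, g, pow_succ,
        pow_zero, one_mul, Subgroup.coe_mul, u_zero_mul, mat_u, uM_e6, Pi.add_apply] at h1
      simp at h1
      grind
    · have := S.isCyclic_H
      obtain ⟨x, ⟨k, rfl⟩, hx⟩ := exists_orderOf_eq_of_cyclic S.H dvd_rfl
      rw [← S.card_H, ← hx]
      exact hm _ (Subgroup.mem_centralizer_singleton_iff.2 (S.a0_mul_h k).symm)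
    · have := S.isCyclic_T1
      obtain ⟨x, ⟨k, -, rfl⟩, hx⟩ := exists_orderOf_eq_of_cyclic S.T1 dvd_rfl
      rw [← S.card_T1, ← hx]
      exact hm _ (Subgroup.mem_centralizer_singleton_iff.2 (S.a0_mul_phi k).symm)

theorem mem_spec [Finite K] (S : Model G K) (hq : 3 < Nat.card K) {r : ℕ} (hr : r * r = 3 * Nat.card K) (n : ℕ) :
    n ∈ Set.range (orderOf : G → ℕ) ↔ (n ∣ 6 ∨ n ∣ 9 ∨ n ∣ Nat.card K - 1 ∨ n ∣ (Nat.card K + 1) / 2) ∨
      n ∣ Nat.card K - r + 1 ∨ n ∣ Nat.card K + r + 1 := by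
  have := S.finite
  constructor
  · rintro ⟨x, rfl⟩
    rcases S.orderOf_cases x with e | e | e | e | e | e | e | e
    iterate 5 (rw [e]; simp)
    · tauto
    · tauto
    · obtain ⟨p, hp, hd⟩ := Nat.exists_prime_and_dvd e.1.ne'
      obtain ⟨T, hT, h1, h2, -⟩ := S.exists_torM hp (hd.trans e.2)
      obtain ⟨g, hg⟩ := hT.exists_conj_mem hp h1 hd
      have h3 := T.orderOf_dvd_natCard hg
      rw [orderOf_conj'] at h3
      rcases (S.card_torM hq hr hT (by rintro rfl; exact hp.not_dvd_one (by simpa using h1)) h2).1 with h | h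
      · exact Or.inr (Or.inl (h ▸ h3))
      · exact Or.inr (Or.inr (h ▸ h3))
  · rintro ((h | h | h | h) | h | h) <;> refine mem_range_orderOf_of_dvd ?_ h
    · exact ⟨S.u 0 1 0 * S.a0, by rw [orderOf_u_a0, if_neg (by simp)]⟩
    · exact ⟨_, S.orderOf_u one_ne_zero 0 0⟩
    · have := S.isCyclic_H
      obtain ⟨x, -, hx⟩ := exists_orderOf_eq_of_cyclic S.H dvd_rfl
      exact ⟨x, hx.trans S.card_H⟩
    · have := S.isCyclic_T1
      obtain ⟨x, -, hx⟩ := exists_orderOf_eq_of_cyclic S.T1 dvd_rfl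
      exact ⟨x, hx.trans S.card_T1⟩
    · obtain ⟨T, t, c, -⟩ := S.exists_tor_pm hq hr (Or.inl rfl)
      have := t.cyc
      obtain ⟨x, -, hx⟩ := exists_orderOf_eq_of_cyclic T dvd_rfl
      exact ⟨x, hx.trans c⟩
    · obtain ⟨T, t, c, -⟩ := S.exists_tor_pm hq hr (Or.inr rfl)
      have := t.cyc
      obtain ⟨x, -, hx⟩ := exists_orderOf_eq_of_cyclic T dvd_rfl
      exact ⟨x, hx.trans c⟩

theorem exists_normal_HV : ∃ P : Subgroup S.HV, P.Normal ∧ P ≠ ⊥ ∧ IsPGroup 3 P := by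
  refine ⟨SemidirectProduct.rightHom.ker, inferInstance, fun h => ?_, ?_⟩
  · have : SemidirectProduct.inl (Multiplicative.ofAdd ⟨e 6, S.mem_Vm.2 (by simp)⟩) ∈
        (SemidirectProduct.rightHom : S.HV →* _).ker := by simp [MonoidHom.mem_ker]
    rw [h, Subgroup.mem_bot, ← map_one SemidirectProduct.inl, SemidirectProduct.inl_inj] at this
    exact e_ne_zero 6 (congrArg (fun x => (x.toAdd : Fin 7 → K)) this)
  · rw [← SemidirectProduct.range_inl_eq_ker_rightHom]
    rintro ⟨_, v, rfl⟩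
    refine ⟨1, Subtype.ext ?_⟩
    rw [Subgroup.coe_pow, ← map_pow, show v ^ 3 ^ 1 = 1 from ?_, map_one, Subgroup.coe_one]
    apply Multiplicative.toAdd.injective
    rw [toAdd_pow, pow_one, ← Nat.cast_smul_eq_nsmul K, CharP.cast_eq_zero, zero_smul, toAdd_one]

theorem spec_cube [Finite K] (hq : 3 < Nat.card K) :
    Set.range (orderOf : G × G × S.HV → ℕ) = Set.range (orderOf : G × G × G → ℕ) := by
  obtain ⟨m, hm⟩ := S.exists_card_eq
  have hr := r_mul_r m
  rw [← hm] at hr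
  have hs := S.mem_spec hq hr
  apply Set.Subset.antisymm
  · rintro _ ⟨⟨x, y, z⟩, rfl⟩
    obtain ⟨z', hz⟩ := (hs _).2 (Or.inl ((S.mem_spec_HV _).1 ⟨z, rfl⟩))
    exact ⟨(x, y, z'), by simp only [Prod.orderOf_mk, hz]⟩
  · rintro _ ⟨⟨x, y, z⟩, rfl⟩
    have k1 : ∀ x y z : G, orderOf z ∈ Set.range (orderOf : S.HV → ℕ) →
        (orderOf x).lcm ((orderOf y).lcm (orderOf z)) ∈ Set.range (orderOf : G × G × S.HV → ℕ) := by
      rintro x y z ⟨z', hz⟩
      exact ⟨(x, y, z'), by simp only [Prod.orderOf_mk, hz]⟩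
    have k2 : ∀ x y z : G, (orderOf y).lcm (orderOf z) ∈ Set.range (orderOf : G → ℕ) →
        (orderOf x).lcm ((orderOf y).lcm (orderOf z)) ∈ Set.range (orderOf : G × G × S.HV → ℕ) := by
      rintro x y z ⟨z', hz⟩
      exact ⟨(x, z', 1), by simp only [Prod.orderOf_mk, hz, orderOf_one, Nat.lcm_one_right]⟩
    have c1 : ∀ a b c : ℕ, a.lcm (b.lcm c) = b.lcm (c.lcm a) := fun a b c => by rw [Nat.lcm_comm, Nat.lcm_assoc]
    simp only [Prod.orderOf_mk]
    rcases (hs _).1 ⟨z, rfl⟩ with hz | hz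
    · exact k1 x y z ((S.mem_spec_HV _).2 hz)
    rcases (hs _).1 ⟨x, rfl⟩ with hx | hx
    · rw [c1]; exact k1 y z x ((S.mem_spec_HV _).2 hx)
    rcases (hs _).1 ⟨y, rfl⟩ with hy | hy
    · rw [← c1]; exact k1 z x y ((S.mem_spec_HV _).2 hy)
    have k3 : ∀ {a b : ℕ}, a ∣ Nat.card K - 3 ^ (m + 1) + 1 → b ∣ Nat.card K - 3 ^ (m + 1) + 1 →
        a.lcm b ∈ Set.range (orderOf : G → ℕ) := fun h h' => (hs _).2 (Or.inr (Or.inl (Nat.lcm_dvd h h')))
    have k4 : ∀ {a b : ℕ}, a ∣ Nat.card K + 3 ^ (m + 1) + 1 → b ∣ Nat.card K + 3 ^ (m + 1) + 1 →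
        a.lcm b ∈ Set.range (orderOf : G → ℕ) := fun h h' => (hs _).2 (Or.inr (Or.inr (Nat.lcm_dvd h h')))
    rcases hy with hy | hy <;> rcases hz with hz | hz
    · exact k2 x y z (k3 hy hz)
    · rcases hx with hx | hx
      · rw [← c1]; exact k2 z x y (k3 hx hy)
      · rw [c1]; exact k2 y z x (k4 hz hx)
    · rcases hx with hx | hx
      · rw [c1]; exact k2 y z x (k3 hz hx)
      · rw [← c1]; exact k2 z x y (k4 hx hy)
    · exact k2 x y z (k4 hy hz)

end Model

end H40.Ree
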